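import Mathlib
import Cfsg.Agent.S2119
import Cfsg.Agent.H824.ProdLem

/-!
# S3509, row `³D₄(q)`: two exclusions (helper351)

* `act` : the action of `P ≤ N(M)` on `M / Z(M)`, faithful if `M` is perfect and `C_P(M) = 1` (`act_injective`);
* `not_exc` : `|P| = q³` and `(q, k) ∈ {(4, 5), (5, 5), (9, 6)}` : `M / Z(M)` is not `A_k`;
* `not_a8` : `M ≤ K`, the Sylow 2-subgroups of `K` of order 8 : `M / Z(M)` is not `A₈`.
-/

set_option autoImplicit false

namespace Cfsg.Agent.H351.RG

open Subgroup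

variable {Y : Type*} [Group Y] {M P : Subgroup Y}

/-- conjugation -/
def conjM (hPn : ∀ g ∈ P, ∀ x ∈ M, g * x * g⁻¹ ∈ M) : P →* MulAut M where
  toFun g :=
    { toFun := fun x => ⟨(g : Y) * x * (g : Y)⁻¹, hPn g g.2 x x.2⟩
      invFun := fun x => ⟨(g : Y)⁻¹ * x * g, by
        have h := hPn _ (inv_mem g.2) x x.2
        rwa [inv_inv] at h⟩
      left_inv := fun x => Subtype.ext (by simp [mul_assoc])
      right_inv := fun x => Subtype.ext (by simp [mul_assoc])
      map_mul' := fun x y => Subtype.ext (by simp [mul_assoc]) }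
  map_one' := by
    ext x
    simp
  map_mul' g h := by
    ext x
    simp [mul_assoc]

theorem coe_conjM (hPn : ∀ g ∈ P, ∀ x ∈ M, g * x * g⁻¹ ∈ M) (g : P) (x : M) :
    ((conjM hPn g x : M) : Y) = (g : Y) * x * (g : Y)⁻¹ := rfl

/-- automorphisms act on the central quotient -/
def qmap (α : MulAut M) : (M ⧸ center M) →* (M ⧸ center M) :=
  QuotientGroup.map _ _ α.toMonoidHom (by
    intro z hz
    rw [mem_comap, mem_center_iff]
    intro g
    obtain ⟨g', rfl⟩ := α.surjective g
    have h := (mem_center_iff.1 hz) g'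
    show α g' * α z = α z * α g'
    rw [← map_mul, h, map_mul])

theorem qmap_mk (α : MulAut M) (x : M) : qmap α (QuotientGroup.mk x) = QuotientGroup.mk (α x) := rfl

/-- the action on the central quotient -/
def act (hPn : ∀ g ∈ P, ∀ x ∈ M, g * x * g⁻¹ ∈ M) : P →* MulAut (M ⧸ center M) where
  toFun g :=
    { toFun := qmap (conjM hPn g)
      invFun := qmap (conjM hPn g⁻¹)
      left_inv := fun x => by
        induction x using QuotientGroup.induction_on with
        | H x =>
          rw [qmap_mk, qmap_mk, ← MulAut.mul_apply, ← map_mul, inv_mul_cancel, map_one, MulAut.one_apply]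
      right_inv := fun x => by
        induction x using QuotientGroup.induction_on with
        | H x =>
          rw [qmap_mk, qmap_mk, ← MulAut.mul_apply, ← map_mul, mul_inv_cancel, map_one, MulAut.one_apply]
      map_mul' := fun x y => map_mul _ x y }
  map_one' := by
    refine MulEquiv.ext fun x => ?_
    induction x using QuotientGroup.induction_on with
    | H x =>
      change qmap (conjM hPn 1) (QuotientGroup.mk x) = QuotientGroup.mk x
      rw [qmap_mk, map_one, MulAut.one_apply]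
  map_mul' g h := by
    refine MulEquiv.ext fun x => ?_
    induction x using QuotientGroup.induction_on with
    | H x =>
      change qmap (conjM hPn (g * h)) (QuotientGroup.mk x) = qmap (conjM hPn g) (qmap (conjM hPn h) (QuotientGroup.mk x))
      rw [qmap_mk, qmap_mk, qmap_mk, map_mul, MulAut.mul_apply]

theorem act_mk (hPn : ∀ g ∈ P, ∀ x ∈ M, g * x * g⁻¹ ∈ M) (g : P) (x : M) :
    act hPn g (QuotientGroup.mk x) = QuotientGroup.mk (conjM hPn g x) := rfl

/-- an automorphism of a perfect group acting trivially modulo the centre is trivial -/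
theorem eq_of_quot (hperf : ⁅M, M⁆ = M) (α : MulAut M) (h : ∀ x, (α x) * x⁻¹ ∈ center M) (x : M) : α x = x := by
  have htop : commutator M = ⊤ := by
    apply Subgroup.map_injective M.subtype_injective
    rw [commutator_def, map_commutator, ← MonoidHom.range_eq_map, range_subtype, hperf]
  let f : M →* M :=
    { toFun := fun x => α x * x⁻¹
      map_one' := by simp
      map_mul' := fun a b => by
        have h1 := (mem_center_iff.1 (h b)) (a⁻¹)
        have h2 : α (a * b) * (a * b)⁻¹ = α a * (α b * b⁻¹ * a⁻¹) := by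
          rw [map_mul]
          group
        rw [h2, ← h1]
        group }
  have hker : commutator M ≤ f.ker := by
    rw [commutator_def, commutator_le]
    intro a _ b _
    rw [MonoidHom.mem_ker, map_commutatorElement, commutatorElement_eq_one_iff_mul_comm]
    exact ((mem_center_iff.1 (h b)) (f a))
  have hx : x ∈ f.ker := hker (htop ▸ mem_top x)
  have h1 : α x * x⁻¹ = 1 := hx
  exact mul_inv_eq_one.1 h1

theorem act_injective (hperf : ⁅M, M⁆ = M) (hPn : ∀ g ∈ P, ∀ x ∈ M, g * x * g⁻¹ ∈ M)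
    (hPc : ∀ g ∈ P, (∀ x ∈ M, g * x = x * g) → g = 1) : Function.Injective (act hPn) := by
  rw [injective_iff_map_eq_one]
  intro g hg
  have h1 : ∀ x : M, conjM hPn g x = x := by
    refine eq_of_quot hperf _ fun x => ?_
    have h2 : act hPn g (QuotientGroup.mk x) = QuotientGroup.mk x := by rw [hg, MulAut.one_apply]
    rw [act_mk] at h2
    have h3 : (QuotientGroup.mk (conjM hPn g x * x⁻¹) : M ⧸ center M) = 1 := by
      rw [QuotientGroup.mk_mul, h2, ← QuotientGroup.mk_mul, mul_inv_cancel, QuotientGroup.mk_one]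
    exact (QuotientGroup.eq_one_iff _).1 h3
  apply Subtype.ext
  refine hPc g g.2 fun x hx => ?_
  have h2 := congrArg Subtype.val (h1 ⟨x, hx⟩)
  rw [coe_conjM] at h2
  exact mul_inv_eq_iff_eq_mul.1 h2

theorem card_dvd_aut (hperf : ⁅M, M⁆ = M) (hPn : ∀ g ∈ P, ∀ x ∈ M, g * x * g⁻¹ ∈ M)
    (hPc : ∀ g ∈ P, (∀ x ∈ M, g * x = x * g) → g = 1) {A : Type*} [Group A] (e : (M ⧸ center M) ≃* A) :
    Nat.card P ∣ Nat.card (MulAut A) := by
  have h1 := Subgroup.card_dvd_of_injective (act hPn) (act_injective hperf hPn hPc)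
  have h2 : Nat.card (MulAut (M ⧸ center M)) = Nat.card (MulAut A) := Nat.card_congr (MulAut.congr e).toEquiv
  rwa [h2] at h1

/-- **`(q, k) ∈ {(4, 5), (5, 5), (9, 6)}`** -/
theorem not_exc [Finite M] (hperf : ⁅M, M⁆ = M) (hPn : ∀ g ∈ P, ∀ x ∈ M, g * x * g⁻¹ ∈ M)
    (hPc : ∀ g ∈ P, (∀ x ∈ M, g * x = x * g) → g = 1) {q k : ℕ} (hP : Nat.card P = q ^ 3)
    (h : (q = 4 ∧ k = 5) ∨ (q = 5 ∧ k = 5) ∨ (q = 9 ∧ k = 6)) :
    ¬ Nonempty ((M ⧸ center M) ≃* alternatingGroup (Fin k)) := by
  rintro ⟨e⟩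
  have h1 := card_dvd_aut hperf hPn hPc e
  rw [hP] at h1
  have h5 : Nat.card (MulAut (alternatingGroup (Fin 5))) = 120 := by
    rw [← Nat.card_congr (Equiv.ofBijective _ (Cfsg.Agent.S2119.result 5 (by norm_num) (by norm_num))),
      Nat.card_eq_fintype_card, Fintype.card_perm, Fintype.card_fin]
    decide
  rcases h with ⟨rfl, rfl⟩ | ⟨rfl, rfl⟩ | ⟨rfl, rfl⟩
  · rw [h5] at h1
    revert h1
    decide
  · rw [h5] at h1
    revert h1
    decide
  · rw [Cfsg.Agent.H824.ProdLem.card_aut_a6] at h1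
    revert h1
    decide

/-- **`A₈`** -/
theorem not_a8 {K : Subgroup Y} [Finite K] (hMK : M ≤ K) (S : Sylow 2 ↥K) (hS : Nat.card S = 8) :
    ¬ Nonempty ((M ⧸ center M) ≃* alternatingGroup (Fin 8)) := by
  rintro ⟨e⟩
  have h1 : Nat.card (alternatingGroup (Fin 8)) = 20160 := by
    have h := two_mul_nat_card_alternatingGroup (α := Fin 8)
    rw [Nat.card_perm, Nat.card_eq_fintype_card (α := Fin 8), Fintype.card_fin] at h
    have h2 : (8 : ℕ).factorial = 40320 := by decide
    omega
  have h2 : Nat.card (M ⧸ center M) ∣ Nat.card M := Subgroup.card_quotient_dvd_card _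
  have h3 : Nat.card M ∣ Nat.card K := Subgroup.card_dvd_of_le hMK
  rw [Nat.card_congr e.toEquiv, h1] at h2
  have h4 : 2 ^ 6 ∣ Nat.card K := (by norm_num : 2 ^ 6 ∣ 20160).trans (h2.trans h3)
  have h5 : 2 ^ 6 ∣ Nat.card S := by
    rw [S.card_eq_multiplicity]
    exact pow_dvd_pow 2 ((Nat.Prime.pow_dvd_iff_le_factorization Nat.prime_two Nat.card_pos.ne').1 h4)
  rw [hS] at h5
  revert h5
  decide

end Cfsg.Agent.H351.RG
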