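import Mathlib

/-!
# S3509, exceptional groups: rational points of the unipotent radical of a long root parabolic (helper351)

`K` algebraically closed, `e x t` root elements, `a` the highest root, `L` the roots `x` with `a - x` a root,
`QK = ⟨e x t : x ∈ L ∪ {a}⟩`, `σ` an automorphism with `σ (e x t) = e (g x) (k_x t ^ q)`.

* `LQ.lin` : `w * e x t = e a (k t) * e x t * w` for `w ∈ QK`;
* `h1` : for `d ∈ QK` fixed by `σ`, not central, every `σ`-fixed `e a s` is a commutator `[d, q]`, `q ∈ QK` fixed by `σ`;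
* `h2` : an element of `QK` commuting with the `σ`-fixed elements of `QK` is central in `QK`.
-/

set_option autoImplicit false

namespace Cfsg.Agent.H351.RG

open scoped commutatorElement

variable {I Y : Type*} [Group Y] {K : Type*} [Field K]

/-- the relations -/
structure LQ (e : (I → ℤ) → K → Y) (a : I → ℤ) (L : Set (I → ℤ)) (c : (I → ℤ) → K) : Prop where
  add : ∀ x, x = a ∨ x ∈ L → ∀ s t, e x (s + t) = e x s * e x t
  inj : ∀ x, x = a ∨ x ∈ L → Function.Injective (e x)
  cen : ∀ x, x = a ∨ x ∈ L → ∀ s t, e x s * e a t = e a t * e x s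
  sub : ∀ x ∈ L, a - x ∈ L
  comm0 : ∀ x ∈ L, ∀ y ∈ L, x + y ≠ a → ∀ s t, e x s * e y t = e y t * e x s
  comm1 : ∀ x ∈ L, ∀ s t, ⁅e x s, e (a - x) t⁆ = e a (c x * s * t)

/-- the group `Q` -/
def QK (e : (I → ℤ) → K → Y) (a : I → ℤ) (L : Set (I → ℤ)) : Subgroup Y :=
  Subgroup.closure {z | ∃ x, (x = a ∨ x ∈ L) ∧ ∃ t, z = e x t}

variable {e : (I → ℤ) → K → Y} {a : I → ℤ} {L : Set (I → ℤ)} {c : (I → ℤ) → K}

omit [Field K] in
theorem e_mem {x : I → ℤ} (hx : x = a ∨ x ∈ L) (t : K) : e x t ∈ QK e a L :=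
  Subgroup.subset_closure ⟨x, hx, t, rfl⟩

namespace LQ

variable (H : LQ e a L c)

include H

theorem zero {x : I → ℤ} (hx : x = a ∨ x ∈ L) : e x 0 = 1 := by
  have := H.add x hx 0 0
  rw [add_zero] at this
  exact left_eq_mul.1 this

theorem neg {x : I → ℤ} (hx : x = a ∨ x ∈ L) (t : K) : e x (-t) = (e x t)⁻¹ := by
  apply eq_inv_of_mul_eq_one_left
  rw [← H.add x hx, neg_add_cancel, H.zero hx]

/-- `e a t` is central in `Q` -/
theorem a_comm {q : Y} (hq : q ∈ QK e a L) (t : K) : q * e a t = e a t * q := by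
  have h1 : QK e a L ≤ Subgroup.centralizer {e a t} := by
    rw [QK, Subgroup.closure_le]
    rintro _ ⟨x, hx, s, rfl⟩
    rw [SetLike.mem_coe, Subgroup.mem_centralizer_singleton_iff]
    exact H.cen x hx s t
  exact Subgroup.mem_centralizer_singleton_iff.1 (h1 hq)

/-- **linearity** -/
theorem lin {w : Y} (hw : w ∈ QK e a L) {x : I → ℤ} (hx : x ∈ L) :
    ∃ k : K, ∀ t, w * e x t = e a (k * t) * e x t * w := by
  have hw' := hw
  rw [QK] at hw'
  induction hw' using Subgroup.closure_induction with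
  | mem z hz =>
    obtain ⟨y, hy, s, rfl⟩ := hz
    by_cases hya : y = a
    · subst hya
      refine ⟨0, fun t => ?_⟩
      rw [zero_mul, H.zero (Or.inl rfl), one_mul]
      exact (H.cen x (Or.inr hx) t s).symm
    · have hyL : y ∈ L := hy.resolve_left hya
      by_cases hyx : y + x = a
      · have : x = a - y := by rw [← hyx]; abel
        subst this
        refine ⟨c y * s, fun t => ?_⟩
        rw [← H.comm1 y hyL, commutatorElement_def]
        group
      · refine ⟨0, fun t => ?_⟩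
        rw [zero_mul, H.zero (Or.inl rfl), one_mul]
        exact H.comm0 y hyL x hx hyx s t
  | one => exact ⟨0, fun t => by rw [zero_mul, H.zero (Or.inl rfl)]; group⟩
  | mul u v hu hv ihu ihv =>
    obtain ⟨k, hk⟩ := ihu hu
    obtain ⟨k', hk'⟩ := ihv hv
    refine ⟨k + k', fun t => ?_⟩
    rw [mul_assoc, hk', ← mul_assoc, ← mul_assoc, H.a_comm hu, mul_assoc (e a _) u, hk, add_mul,
      add_comm (k * t), H.add a (Or.inl rfl)]
    group
  | inv u hu ihu =>
    obtain ⟨k, hk⟩ := ihu hu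
    refine ⟨-k, fun t => ?_⟩
    have h1 := hk t
    have h2 := H.a_comm (show u ∈ QK e a L from hu) (-k * t)
    have h3 : e a (-k * t) * e a (k * t) = 1 := by
      rw [← H.add a (Or.inl rfl)]
      have : -k * t + k * t = 0 := by ring
      rw [this, H.zero (Or.inl rfl)]
    have h7 : u * (e a (-k * t) * e x t) = e x t * u := by
      rw [← mul_assoc, h2, mul_assoc, h1, ← mul_assoc, ← mul_assoc, h3, one_mul]
    have h6 : e a (-k * t) * e x t = u⁻¹ * (e x t * u) := by rw [← h7]; group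
    rw [h6]
    group

omit H in
/-- the commutator with a root element -/
theorem comm_eq {w : Y} {x : I → ℤ} {k t : K} (h : w * e x t = e a (k * t) * e x t * w) : ⁅w, e x t⁆ = e a (k * t) := by
  rw [commutatorElement_def, h]; group

/-- the commutator is multiplicative -/
theorem comm_mul {w u v : Y} {k k' : K} (hu : u ∈ QK e a L) (h1 : ⁅w, u⁆ = e a k) (h2 : ⁅w, v⁆ = e a k') :
    ⁅w, u * v⁆ = e a (k + k') := by
  have h3 : ⁅w, u * v⁆ = ⁅w, u⁆ * (u * ⁅w, v⁆ * u⁻¹) := by
    simp only [commutatorElement_def]; group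
  rw [h3, h1, h2, H.a_comm hu, H.add a (Or.inl rfl)]
  group

/-- an element with zero coefficients is central -/
theorem central {w : Y} (hw : w ∈ QK e a L) (h0 : ∀ x ∈ L, ∀ t, w * e x t = e x t * w) :
    ∀ q ∈ QK e a L, w * q = q * w := by
  intro q hq
  have h1 : QK e a L ≤ Subgroup.centralizer {w} := by
    rw [QK, Subgroup.closure_le]
    rintro _ ⟨x, hx, s, rfl⟩
    rw [SetLike.mem_coe, Subgroup.mem_centralizer_singleton_iff]
    rcases hx with rfl | hx
    · exact (H.a_comm hw s).symm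
    · exact (h0 x hx s).symm
  exact (Subgroup.mem_centralizer_singleton_iff.1 (h1 hq)).symm

end LQ

/-- the action of `σ` -/
structure Sg (e : (I → ℤ) → K → Y) (a : I → ℤ) (L : Set (I → ℤ)) (σ : MulAut Y) (q : ℕ)
    (g : (I → ℤ) → (I → ℤ)) : Prop where
  act : ∀ x, x = a ∨ x ∈ L → ∃ k : K, k ≠ 0 ∧ ∀ t, σ (e x t) = e (g x) (k * t ^ q)
  ga : g a = a
  gL : ∀ x ∈ L, g x ∈ L
  ord : ∃ m, 0 < m ∧ ∀ x ∈ L, g^[m] x = x
  opp : ∀ x ∈ L, ∀ i, x + g^[i] x ≠ a
  q2 : 2 ≤ q
  q0 : (q : K) = 0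

namespace Sg

variable {σ : MulAut Y} {q : ℕ} {g : (I → ℤ) → (I → ℤ)} (S : Sg e a L σ q g) (H : LQ e a L c)

include S

theorem iter_mem {x : I → ℤ} (hx : x = a ∨ x ∈ L) (i : ℕ) : g^[i] x = a ∨ g^[i] x ∈ L := by
  induction i with
  | zero => exact hx
  | succ i ih =>
    rw [Function.iterate_succ_apply']
    rcases ih with h | h
    · left; rw [h, S.ga]
    · exact Or.inr (S.gL _ h)

theorem iter_L {x : I → ℤ} (hx : x ∈ L) (i : ℕ) : g^[i] x ∈ L := by
  induction i with
  | zero => exact hx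
  | succ i ih =>
    rw [Function.iterate_succ_apply']
    exact S.gL _ ih

/-- iterates of `σ` -/
theorem act_iter {x : I → ℤ} (hx : x = a ∨ x ∈ L) (i : ℕ) :
    ∃ k : K, k ≠ 0 ∧ ∀ t, (σ ^ i) (e x t) = e (g^[i] x) (k * t ^ q ^ i) := by
  induction i with
  | zero => exact ⟨1, one_ne_zero, fun t => by simp⟩
  | succ i ih =>
    obtain ⟨k, hk, h1⟩ := ih
    obtain ⟨k', hk', h2⟩ := S.act _ (S.iter_mem hx i)
    refine ⟨k' * k ^ q, mul_ne_zero hk' (pow_ne_zero _ hk), fun t => ?_⟩
    rw [pow_succ', MulAut.mul_apply, h1, h2, Function.iterate_succ_apply']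
    congr 1
    rw [mul_pow, ← pow_mul, ← pow_succ, mul_assoc]

theorem act_a (i : ℕ) : ∃ k : K, k ≠ 0 ∧ ∀ t, (σ ^ i) (e a t) = e a (k * t ^ q ^ i) := by
  obtain ⟨k, hk, h⟩ := S.act_iter (Or.inl rfl) i
  have h1 : g^[i] a = a := by
    induction i with
    | zero => rfl
    | succ i ih => rw [Function.iterate_succ_apply, S.ga]; exact Function.iterate_fixed S.ga i
  rw [h1] at h
  exact ⟨k, hk, h⟩

theorem sig_mem {w : Y} (hw : w ∈ QK e a L) : σ w ∈ QK e a L := by
  have h1 : QK e a L ≤ (QK e a L).comap σ.toMonoidHom := by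
    conv_lhs => rw [QK]
    rw [Subgroup.closure_le]
    rintro _ ⟨x, hx, t, rfl⟩
    obtain ⟨k, -, h⟩ := S.act x hx
    show σ (e x t) ∈ QK e a L
    rw [h]
    refine e_mem ?_ _
    rcases hx with rfl | hx
    · exact Or.inl S.ga
    · exact Or.inr (S.gL x hx)
  exact h1 hw

theorem pow_mem {w : Y} (hw : w ∈ QK e a L) (i : ℕ) : (σ ^ i) w ∈ QK e a L := by
  induction i with
  | zero => exact hw
  | succ i ih =>
    rw [pow_succ', MulAut.mul_apply]
    exact S.sig_mem ih

/-- the product of the conjugates -/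
noncomputable def nrm (σ : MulAut Y) (m : ℕ) (u : Y) : Y := ((List.range m).map fun i => (σ ^ i) u).prod

theorem nrm_mem {u : Y} (hu : u ∈ QK e a L) (m : ℕ) : nrm σ m u ∈ QK e a L := by
  refine Subgroup.list_prod_mem _ fun y hy => ?_
  obtain ⟨i, -, rfl⟩ := List.mem_map.1 hy
  exact S.pow_mem hu i

omit [Field K] S in
/-- the product is fixed -/
theorem nrm_fix {m : ℕ} (hm : 0 < m) {u : Y} (hu : (σ ^ m) u = u)
    (hc : ∀ i, 0 < i → i < m → (σ ^ i) u * u = u * (σ ^ i) u) : σ (nrm σ m u) = nrm σ m u := by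
  obtain ⟨n, rfl⟩ : ∃ n, m = n + 1 := ⟨m - 1, by omega⟩
  have h1 : σ (nrm σ (n + 1) u) = ((List.range (n + 1)).map fun i => (σ ^ (i + 1)) u).prod := by
    unfold nrm
    rw [map_list_prod, List.map_map]
    congr 1
    refine List.map_congr_left fun i _ => ?_
    rw [pow_succ']
    rfl
  rw [h1, List.range_succ, List.map_append, List.prod_append]
  have h4 : nrm σ (n + 1) u = u * ((List.range n).map fun i => (σ ^ (i + 1)) u).prod := by
    unfold nrm
    rw [List.range_succ_eq_map, List.map_cons, List.prod_cons, List.map_map]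
    rfl
  rw [h4]
  simp only [List.map_cons, List.map_nil, List.prod_cons, List.prod_nil, mul_one]
  rw [hu]
  have h2 : ((List.range n).map fun i => (σ ^ (i + 1)) u).prod * u = u * ((List.range n).map fun i => (σ ^ (i + 1)) u).prod := by
    have h3 : ((List.range n).map fun i => (σ ^ (i + 1)) u).prod ∈ Subgroup.centralizer {u} := by
      refine Subgroup.list_prod_mem _ fun y hy => ?_
      obtain ⟨i, hi, rfl⟩ := List.mem_map.1 hy
      rw [Subgroup.mem_centralizer_singleton_iff]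
      have := List.mem_range.1 hi
      exact hc (i + 1) (by omega) (by omega)
    exact Subgroup.mem_centralizer_singleton_iff.1 h3
  exact h2

include H

omit S in
theorem comm_prod {w : Y} (v : ℕ → Y) (hv : ∀ i, v i ∈ QK e a L) (A : ℕ → K) (hA : ∀ i, ⁅w, v i⁆ = e a (A i)) (m : ℕ) :
    ⁅w, ((List.range m).map v).prod⁆ = e a (∑ i ∈ Finset.range m, A i) := by
  induction m with
  | zero =>
    simp only [List.range_zero, List.map_nil, List.prod_nil, Finset.range_zero, Finset.sum_empty]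
    rw [commutatorElement_one_right, H.zero (Or.inl rfl)]
  | succ m ih =>
    rw [List.range_succ, List.map_append, List.prod_append, Finset.sum_range_succ]
    simp only [List.map_cons, List.map_nil, List.prod_cons, List.prod_nil, mul_one]
    refine H.comm_mul (Subgroup.list_prod_mem _ fun y hy => ?_) ih (hA m)
    obtain ⟨i, -, rfl⟩ := List.mem_map.1 hy
    exact hv i

/-- the commutators with the conjugates of a root element -/
theorem comm_pow {w : Y} (hw : w ∈ QK e a L) {x : I → ℤ} (hx : x ∈ L) :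
    ∃ k : ℕ → K, (∀ t, w * e x t = e a (k 0 * t) * e x t * w) ∧
      ∀ i t, ⁅w, (σ ^ i) (e x t)⁆ = e a (k i * t ^ q ^ i) := by
  choose b hb0 hb using fun i => S.act_iter (x := x) (Or.inr hx) i
  choose k' hk' using fun i => H.lin hw (S.iter_L hx i)
  have hb00 : b 0 = 1 := by
    have h1 := hb 0 1
    simp only [pow_zero, MulAut.one_apply, one_pow, mul_one, Function.iterate_zero, id_eq] at h1
    exact (H.inj x (Or.inr hx) h1).symm
  refine ⟨fun i => k' i * b i, fun t => ?_, fun i t => ?_⟩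
  · have h1 := hk' 0 t
    simp only [Function.iterate_zero, id_eq] at h1
    show w * e x t = e a (k' 0 * b 0 * t) * e x t * w
    rw [hb00, mul_one, h1]
  · rw [hb, LQ.comm_eq (hk' i _), mul_assoc]

theorem fix_line {x : I → ℤ} (hx : x ∈ L) {m : ℕ} (hm : 0 < m) (t : K)
    (ht : (σ ^ m) (e x t) = e x t) : σ (nrm σ m (e x t)) = nrm σ m (e x t) := by
  refine nrm_fix hm ht fun i _ _ => ?_
  obtain ⟨k, -, hk⟩ := S.act_iter (x := x) (Or.inr hx) i
  rw [hk]
  exact (H.comm0 x hx _ (S.iter_L hx i) (S.opp x hx i) _ _).symm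

omit H in
/-- the coefficient of `X` -/
theorem coeff_one (k : ℕ → K) {m : ℕ} (hm : 0 < m) :
    (∑ i ∈ Finset.range m, Polynomial.C (k i) * Polynomial.X ^ q ^ i).coeff 1 = k 0 := by
  rw [Polynomial.finsetSum_coeff, Finset.sum_eq_single 0]
  · simp
  · intro i _ hi
    rw [Polynomial.coeff_C_mul, Polynomial.coeff_X_pow, if_neg, mul_zero]
    have := Nat.one_lt_pow hi S.q2
    omega
  · intro h
    exact absurd (Finset.mem_range.2 hm) h

/-- **(h1)** -/
theorem h1 [IsAlgClosed K] {d : Y} (hd : d ∈ QK e a L) (hσ : σ d = d) (hne : ∃ u ∈ QK e a L, d * u ≠ u * d) {s : K}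
    (hs : σ (e a s) = e a s) : ∃ u ∈ QK e a L, σ u = u ∧ e a s = d * u * d⁻¹ * u⁻¹ := by
  obtain ⟨m, hm, hgm⟩ := S.ord
  -- a root with a nonzero coefficient
  obtain ⟨x, hx, hxc⟩ : ∃ x ∈ L, ∃ t, d * e x t ≠ e x t * d := by
    by_contra hcon
    push Not at hcon
    obtain ⟨u, hu, hu'⟩ := hne
    exact hu' (H.central hd hcon u hu)
  obtain ⟨k, hk0, hk⟩ := S.comm_pow H hd hx
  have hk00 : k 0 ≠ 0 := by
    intro h0
    obtain ⟨t, ht⟩ := hxc
    apply ht
    rw [hk0, h0, zero_mul, H.zero (Or.inl rfl), one_mul]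
  -- the root of the polynomial
  obtain ⟨t, ht⟩ : ∃ t : K, ∑ i ∈ Finset.range m, k i * t ^ q ^ i = s := by
    set P : Polynomial K := (∑ i ∈ Finset.range m, Polynomial.C (k i) * Polynomial.X ^ q ^ i) - Polynomial.C s with hP
    have hdeg : P.degree ≠ 0 := by
      intro h0
      have h1 : P.coeff 1 = 0 := by
        rw [Polynomial.eq_C_of_degree_eq_zero h0, Polynomial.coeff_C, if_neg one_ne_zero]
      rw [hP, Polynomial.coeff_sub, S.coeff_one k hm, Polynomial.coeff_C, if_neg one_ne_zero, sub_zero] at h1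
      exact hk00 h1
    obtain ⟨t, ht⟩ := IsAlgClosed.exists_root P hdeg
    refine ⟨t, ?_⟩
    rw [Polynomial.IsRoot.def, hP, Polynomial.eval_sub, Polynomial.eval_finsetSum, Polynomial.eval_C, sub_eq_zero] at ht
    rw [← ht]
    refine Finset.sum_congr rfl fun i _ => ?_
    rw [Polynomial.eval_mul, Polynomial.eval_C, Polynomial.eval_pow, Polynomial.eval_X]
  have hmem : ∀ i, (σ ^ i) (e x t) ∈ QK e a L := fun i => S.pow_mem (e_mem (Or.inr hx) t) i
  have hc1 : ⁅d, nrm σ m (e x t)⁆ = e a s := by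
    rw [← ht]
    exact comm_prod H (fun i => (σ ^ i) (e x t)) hmem _ (fun i => hk i t) m
  have hc2 : ⁅d, σ (nrm σ m (e x t))⁆ = e a s := by
    have h2 : σ ⁅d, nrm σ m (e x t)⁆ = ⁅d, σ (nrm σ m (e x t))⁆ := by
      rw [map_commutatorElement, hσ]
    rw [← h2, hc1, hs]
  have hc3 : ⁅d, σ (nrm σ m (e x t))⁆ = e a (∑ i ∈ Finset.range m, k (i + 1) * t ^ q ^ (i + 1)) := by
    have h2 : σ (nrm σ m (e x t)) = ((List.range m).map fun i => (σ ^ (i + 1)) (e x t)).prod := by
      unfold nrm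
      rw [map_list_prod, List.map_map]
      congr 1
      refine List.map_congr_left fun i _ => ?_
      rw [pow_succ']
      rfl
    rw [h2]
    exact comm_prod H (fun i => (σ ^ (i + 1)) (e x t)) (fun i => hmem (i + 1)) _ (fun i => hk (i + 1) t) m
  have hA : k m * t ^ q ^ m = k 0 * t := by
    have h2 := H.inj a (Or.inl rfl) (hc3.symm.trans hc2)
    have h3 := Finset.sum_range_succ (fun i => k i * t ^ q ^ i) m
    have h4 := Finset.sum_range_succ' (fun i => k i * t ^ q ^ i) m
    rw [h3, ht] at h4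
    rw [h2, pow_zero, pow_one] at h4
    exact add_left_cancel h4
  -- `σ ^ m` fixes `e x t`
  have hfix : (σ ^ m) (e x t) = e x t := by
    obtain ⟨b, -, hb⟩ := S.act_iter (x := x) (Or.inr hx) m
    rw [hgm x hx] at hb
    have h2 := hk m t
    rw [hb, LQ.comm_eq (hk0 _), hA] at h2
    have h3 := mul_left_cancel₀ hk00 (H.inj a (Or.inl rfl) h2)
    rw [hb, h3]
  refine ⟨nrm σ m (e x t), S.nrm_mem (e_mem (Or.inr hx) t) m, S.fix_line H hx hm t hfix, ?_⟩
  rw [← hc1, commutatorElement_def]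

/-- **(h2)** -/
theorem h2 [IsAlgClosed K] {w : Y} (hw : w ∈ QK e a L) (hc : ∀ u ∈ QK e a L, σ u = u → w * u = u * w) :
    ∀ u ∈ QK e a L, w * u = u * w := by
  classical
  obtain ⟨m, hm, hgm⟩ := S.ord
  refine H.central hw fun x hx t₀ => ?_
  obtain ⟨k, hk0, hk⟩ := S.comm_pow H hw hx
  obtain ⟨b, hb0, hb⟩ := S.act_iter (x := x) (Or.inr hx) m
  rw [hgm x hx] at hb
  suffices hk00 : k 0 = 0 by rw [hk0, hk00, zero_mul, H.zero (Or.inl rfl), one_mul]
  by_contra hk00
  have hq1 : 1 < q ^ m := Nat.one_lt_pow hm.ne' S.q2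
  -- the rational points
  set G : Polynomial K := Polynomial.C b * Polynomial.X ^ q ^ m - Polynomial.X with hG
  have hGd : G.natDegree = q ^ m := by
    rw [hG, Polynomial.natDegree_sub_eq_left_of_natDegree_lt]
    · exact Polynomial.natDegree_C_mul_X_pow _ _ hb0
    · rw [Polynomial.natDegree_C_mul_X_pow _ _ hb0, Polynomial.natDegree_X]
      exact hq1
  have hsep : G.Separable := by
    have h3 : Polynomial.derivative G = -1 := by
      rw [hG, Polynomial.derivative_sub, Polynomial.derivative_C_mul, Polynomial.derivative_X_pow,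
        Polynomial.derivative_X]
      have h4 : ((q ^ m : ℕ) : K) = 0 := by
        rw [Nat.cast_pow, S.q0, zero_pow hm.ne']
      rw [h4]
      simp
    rw [Polynomial.separable_def, h3]
    exact ⟨0, -1, by simp⟩
  have hroot : ∀ t, G.eval t = 0 → (σ ^ m) (e x t) = e x t := by
    intro t ht
    rw [hG, Polynomial.eval_sub, Polynomial.eval_mul, Polynomial.eval_C, Polynomial.eval_pow, Polynomial.eval_X,
      sub_eq_zero] at ht
    rw [hb, ht]
  set P : Polynomial K := ∑ i ∈ Finset.range m, Polynomial.C (k i) * Polynomial.X ^ q ^ i with hP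
  have hP0 : P ≠ 0 := by
    intro h0
    apply hk00
    rw [← S.coeff_one k hm, ← hP, h0, Polynomial.coeff_zero]
  have hPd : P.natDegree < q ^ m := by
    refine lt_of_le_of_lt (Polynomial.natDegree_sum_le_of_forall_le (n := q ^ (m - 1)) _ _ fun i hi => ?_)
      (Nat.pow_lt_pow_right S.q2 (by omega))
    refine (Polynomial.natDegree_C_mul_X_pow_le _ _).trans (Nat.pow_le_pow_right (by have := S.q2; omega) ?_)
    have := Finset.mem_range.1 hi
    omega
  have hPe : ∀ t ∈ G.roots.toFinset, P.eval t = 0 := by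
    intro t ht
    rw [Multiset.mem_toFinset, Polynomial.mem_roots'] at ht
    have h3 := S.fix_line H hx hm t (hroot t ht.2)
    have h4 := hc _ (S.nrm_mem (e_mem (Or.inr hx) t) m) h3
    have h5 := comm_prod H (fun i => (σ ^ i) (e x t)) (fun i => S.pow_mem (e_mem (Or.inr hx) t) i) _
      (fun i => hk i t) m
    have h6 : ⁅w, nrm σ m (e x t)⁆ = 1 := commutatorElement_eq_one_iff_mul_comm.2 h4
    have h7 : e a (∑ i ∈ Finset.range m, k i * t ^ q ^ i) = e a 0 := by
      rw [H.zero (Or.inl rfl), ← h6, ← h5]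
      rfl
    have h8 := H.inj a (Or.inl rfl) h7
    rw [hP, Polynomial.eval_finsetSum, ← h8]
    refine Finset.sum_congr rfl fun i _ => ?_
    rw [Polynomial.eval_mul, Polynomial.eval_C, Polynomial.eval_pow, Polynomial.eval_X]
  refine hP0 (Polynomial.eq_zero_of_natDegree_lt_card_of_eval_eq_zero' P G.roots.toFinset hPe ?_)
  rw [Multiset.toFinset_card_of_nodup (Polynomial.nodup_roots hsep),
    Polynomial.splits_iff_card_roots.1 (IsAlgClosed.splits G), hGd]
  exact hPd

end Sg

end Cfsg.Agent.H351.RG
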