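import Cfsg.Agent.H351.RG.TwAbs
import Cfsg.Agent.H316.U6Model

/-!
# S3509, exceptional groups: the Frobenius automorphism on the long root radical (helper351)

* `MData.sg` : `Sg` for `m : H316.U6.MData`, the root elements `xc hp x t`, `a` the highest root and
  `L = {x root, a - x root}`.
-/

set_option autoImplicit false
set_option linter.unusedSectionVars false

namespace Cfsg.Agent.H351.RG

open CoxeterSystem Cfsg Cfsg.Lie Cfsg.Lie.ChevalleyDatum
open Cfsg.Agent.ChevalleyStructure Cfsg.Agent.ChevalleyStructure.Elts Cfsg.Agent.ChevalleyStructure.CoxeterGeom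
  Cfsg.Agent.ChevalleyStructure.CoxeterGeomTypes Cfsg.Agent.ChevalleyStructure.NPerm
open Cfsg.Agent.Nodes.RGDChev Cfsg.Agent.KFacts.RgdChevCoord
open Cfsg.Agent.BpExc Cfsg.Agent.BpExc.TowChev
open Cfsg.Agent.H469.Exc Cfsg.Agent.H469.Exc.SigFr Cfsg.Agent.H316.U6

variable {D : ChevalleyDatum} {l : ℕ} {M : CoxeterMatrix (Fin l)} {hp : IsType D l M}

/-- the roots `x` with `a - x` a root, `a` the highest root -/
def LR (D : ChevalleyDatum) (l : ℕ) : Set (Fin l → ℤ) :=
  {x | (∃ s < D.nroots, vec D l s = x) ∧ ∃ s < D.nroots, vec D l s = vec D l (D.nroots - 1) - x}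

theorem xc_eq_xs {k : Type*} [Field k] {s : ℕ} (hs : s < D.nroots) (t : k) :
    xc hp (vec D l s) t = xs hp.inList s t := Subtype.ext (coe_xc hp hs t)

variable {r q : ℕ} [hr : Fact r.Prime] {K₀ : Type*} [Group K₀] (m : MData hp r q K₀)

theorem g_iter (i : ℕ) (v : Fin l → ℤ) (j : Fin l) : (fun v => m.g v)^[i] v j = v ((m.π ^ i) j) := by
  induction i generalizing v with
  | zero => rfl
  | succ i ih =>
    rw [Function.iterate_succ_apply, ih, m.perm, pow_succ', Equiv.Perm.mul_apply]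

theorem g_sum (i : ℕ) (v : Fin l → ℤ) : ∑ j, (fun v => m.g v)^[i] v j = ∑ j, v j := by
  simp_rw [g_iter]
  exact Equiv.sum_comp (m.π ^ i) v

theorem sg (hpos : 0 < D.nroots) (hodd : Odd (∑ j, vec D l (D.nroots - 1) j)) :
    Sg (K := KK r) (fun x t => xc hp x t) (vec D l (D.nroots - 1)) (LR D l) m.σ q (fun v => m.g v) where
  act := by
    have key : ∀ s < D.nroots, ∃ k : KK r, k ≠ 0 ∧ ∀ t, m.σ (xc hp (vec D l s) t) = xc hp (m.g (vec D l s)) (k * t ^ q) := by
      intro s hs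
      obtain ⟨s', h1, hs', c, hc, h2, -⟩ := m.act s hs
      refine ⟨c, hc, fun t => ?_⟩
      rw [← h1, xc_eq_xs hs, xc_eq_xs hs', h2]
    rintro x (rfl | ⟨⟨s, hs, rfl⟩, -⟩)
    · exact key _ (by omega)
    · exact key s hs
  ga := m.top
  gL := by
    rintro x ⟨⟨s, hs, rfl⟩, s₂, hs₂, h2⟩
    obtain ⟨s', h1, hs', -⟩ := m.act s hs
    obtain ⟨s₂', h3, hs₂', -⟩ := m.act s₂ hs₂
    refine ⟨⟨s', hs', h1⟩, s₂', hs₂', ?_⟩
    rw [h3, h2, map_sub, m.top]
  ord := by
    refine ⟨orderOf m.π, orderOf_pos _, fun x _ => ?_⟩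
    funext j
    rw [g_iter, pow_orderOf_eq_one]
    rfl
  opp := by
    intro x _ i h
    have h1 := g_sum m i x
    have h2 : ∑ j, (x + (fun v => m.g v)^[i] x) j = ∑ j, vec D l (D.nroots - 1) j := by rw [h]
    simp_rw [Pi.add_apply] at h2
    rw [Finset.sum_add_distrib, h1] at h2
    rw [← h2, ← two_mul] at hodd
    exact (Int.not_odd_iff_even.2 (even_two_mul _)) hodd
  q2 := by
    rw [← m.hq]
    exact Nat.one_lt_pow m.he.ne' hr.out.one_lt
  q0 := by
    rw [← m.hq, Nat.cast_pow, CharP.cast_eq_zero (KK r) r, zero_pow m.he.ne']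

end Cfsg.Agent.H351.RG
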